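import Cfsg.Agent.RankOneP.Basic
import Cfsg.Agent.Hall.Basic
import Cfsg.Agent.PCore.PConstrained
import Mathlib.GroupTheory.SpecificGroups.Quaternion
import Mathlib.GroupTheory.SchurZassenhaus

/-!
Finite groups in which abelian subgroups of equal order are conjugate.
-/

set_option autoImplicit false

namespace CfsgLib.BGroups

universe u

/-- Any two abelian subgroups of the same order are conjugate. -/
def BCond (G : Type*) [Group G] : Prop :=
  ∀ A B : Subgroup G, IsMulCommutative ↥A → IsMulCommutative ↥B → Nat.card ↥A = Nat.card ↥B →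
    ∃ g : G, B = A.map (MulAut.conj g).toMonoidHom

theorem map_conj_comp {G H : Type*} [Group G] [Group H] (f : G →* H) (A : Subgroup G) (g : G) :
    (A.map (MulAut.conj g).toMonoidHom).map f = (A.map f).map (MulAut.conj (f g)).toMonoidHom := by
  rw [Subgroup.map_map, Subgroup.map_map]
  congr 1
  ext x
  simp

theorem bcond_of_equiv {G H : Type*} [Group G] [Group H] (e : G ≃* H) (h : BCond G) : BCond H := by
  intro A B hA hB hc
  haveI := hA
  haveI := hB
  have hinj : Function.Injective e.symm.toMonoidHom := e.symm.injective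
  obtain ⟨g, hg⟩ := h (A.map e.symm.toMonoidHom) (B.map e.symm.toMonoidHom) inferInstance inferInstance
    (by rw [Subgroup.card_map_of_injective hinj, Subgroup.card_map_of_injective hinj, hc])
  refine ⟨e g, ?_⟩
  have h1 := congrArg (Subgroup.map e.toMonoidHom) hg
  have h2 : ∀ X : Subgroup H, (X.map e.symm.toMonoidHom).map e.toMonoidHom = X := by
    intro X
    rw [Subgroup.map_map, show e.toMonoidHom.comp e.symm.toMonoidHom = MonoidHom.id H by ext x; simp,
      Subgroup.map_id]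
  rw [map_conj_comp, h2, h2] at h1
  exact h1

variable {G : Type*} [Group G] [Finite G] {p : ℕ} [Fact p.Prime]

theorem mem_of_pow_eq_one (hB : BCond G) {V : Subgroup G} [V.Normal] {v : G} (hv : v ∈ V)
    (hvo : orderOf v = p) {x : G} (hx : x ^ p = 1) : x ∈ V := by
  by_cases hx1 : x = 1
  · rw [hx1]; exact one_mem _
  obtain ⟨g, hg⟩ := hB (Subgroup.zpowers v) (Subgroup.zpowers x) inferInstance inferInstance
    (by rw [Nat.card_zpowers, Nat.card_zpowers, hvo, orderOf_eq_prime hx hx1])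
  obtain ⟨b, hb, hbx⟩ :=
    (hg ▸ Subgroup.mem_zpowers x : x ∈ (Subgroup.zpowers v).map (MulAut.conj g).toMonoidHom)
  rw [← hbx]
  exact (inferInstance : V.Normal).conj_mem b (Subgroup.zpowers_le.2 hv hb) g

theorem pElement_mem (hB : BCond G) {V : Subgroup G} [V.Normal] (hab : IsMulCommutative ↥V)
    (hexp : ∀ x ∈ V, x ^ p = 1) (hbig : p ^ 2 ∣ Nat.card V) {v : G} (hv : v ∈ V) (hvo : orderOf v = p)
    {x : G} {m : ℕ} (hx : x ^ p ^ m = 1) : x ∈ V := by
  have hp := (Fact.out : p.Prime)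
  obtain ⟨i, -, hi⟩ := (Nat.dvd_prime_pow hp).1 (orderOf_dvd_of_pow_eq_one hx)
  rcases Nat.lt_or_ge i 2 with h | h
  · refine mem_of_pow_eq_one hB hv hvo ?_
    rw [← orderOf_dvd_iff_pow_eq_one, hi]
    exact (pow_dvd_pow p (show i ≤ 1 by omega)).trans (by rw [pow_one])
  exfalso
  have ho : orderOf (x ^ p ^ (i - 2)) = p * p := by
    rw [orderOf_pow' _ (pow_ne_zero _ hp.ne_zero), hi, Nat.gcd_eq_right (pow_dvd_pow p (by omega)),
      Nat.pow_div (by omega) hp.pos, show i - (i - 2) = 2 by omega, pow_two]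
  obtain ⟨W, hW⟩ := Sylow.exists_subgroup_card_pow_prime (G := V) p hbig
  haveI : IsMulCommutative ↥W := ⟨⟨fun a b => Subtype.ext (hab.is_comm.comm _ _)⟩⟩
  obtain ⟨g, hg⟩ := hB (W.map V.subtype) (Subgroup.zpowers (x ^ p ^ (i - 2))) inferInstance inferInstance
    (by rw [Subgroup.card_map_of_injective V.subtype_injective, hW, Nat.card_zpowers, ho, pow_two])
  obtain ⟨b, hb, hbx⟩ := (hg ▸ Subgroup.mem_zpowers (x ^ p ^ (i - 2)) :
    x ^ p ^ (i - 2) ∈ (W.map V.subtype).map (MulAut.conj g).toMonoidHom)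
  have h1 : x ^ p ^ (i - 2) ∈ V := by
    rw [← hbx]
    exact (inferInstance : V.Normal).conj_mem b (Subgroup.map_subtype_le _ hb) g
  have h3 := Nat.le_of_dvd hp.pos (ho ▸ orderOf_dvd_of_pow_eq_one (hexp _ h1))
  exact absurd h3 (not_le.2 (lt_mul_self hp.one_lt))

/-- Splitting of a subgroup which is abelian modulo a normal `p`-subgroup. -/
theorem decomp (V A : Subgroup G) [V.Normal] (hV : IsPGroup p V) (hVA : V ≤ A)
    (hcomm : ∀ u ∈ A, ∀ w ∈ A, u * w * u⁻¹ * w⁻¹ ∈ V) :
    ∃ S T : Subgroup G, IsPGroup p S ∧ V ≤ S ∧ S ≤ A ∧ T ≤ A ∧ IsMulCommutative ↥T ∧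
      (Nat.card T).Coprime p ∧ S ⊔ T = A ∧ Nat.card S * Nat.card T = Nat.card A := by
  have hp := (Fact.out : p.Prime)
  let Sy : Sylow p ↥A := default
  have hVS : V.subgroupOf A ≤ (Sy : Subgroup ↥A) :=
    IsPGroup.le_sylow_of_normal (N := V.subgroupOf A)
      (hV.comap_of_injective A.subtype A.subtype_injective) Sy
  haveI : (Sy : Subgroup ↥A).Normal := ⟨fun n hn g => by
    have h1 : g * n * g⁻¹ * n⁻¹ ∈ (Sy : Subgroup ↥A) :=
      hVS (Subgroup.mem_subgroupOf.2 (hcomm g g.2 n n.2))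
    simpa [mul_assoc] using mul_mem h1 hn⟩
  obtain ⟨T', hT'⟩ := Subgroup.exists_right_complement'_of_coprime (Sylow.card_coprime_index Sy)
  have hco : (Nat.card T').Coprime p := by
    rw [← hT'.symm.index_eq_card]
    exact (hp.coprime_iff_not_dvd.2 Sy.not_dvd_index).symm
  refine ⟨(Sy : Subgroup ↥A).map A.subtype, T'.map A.subtype, Sy.2.map _, ?_,
    Subgroup.map_subtype_le _, Subgroup.map_subtype_le _, ⟨⟨?_⟩⟩, ?_, ?_, ?_⟩
  · calc V = (V.subgroupOf A).map A.subtype := (Subgroup.map_subgroupOf_eq_of_le hVA).symm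
      _ ≤ _ := Subgroup.map_mono hVS
  · intro u w
    apply Subtype.ext
    show (u : G) * w = w * u
    have hu := Subgroup.map_subtype_le _ u.2
    have hw := Subgroup.map_subtype_le _ w.2
    have hinf : T'.map A.subtype ⊓ V = ⊥ := by
      refine Subgroup.inf_eq_bot_of_coprime ?_
      obtain ⟨k, hk⟩ := IsPGroup.iff_card.1 hV
      rw [Subgroup.card_map_of_injective A.subtype_injective, hk]
      exact hco.pow_right k
    have h1 : (u : G) * w * (u : G)⁻¹ * (w : G)⁻¹ ∈ T'.map A.subtype ⊓ V :=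
      Subgroup.mem_inf.2 ⟨mul_mem (mul_mem (mul_mem u.2 w.2) (inv_mem u.2)) (inv_mem w.2),
        hcomm _ hu _ hw⟩
    rw [hinf, Subgroup.mem_bot] at h1
    exact mul_inv_eq_iff_eq_mul.1 (mul_inv_eq_one.1 h1)
  · rw [Subgroup.card_map_of_injective A.subtype_injective]; exact hco
  · rw [← Subgroup.map_sup, hT'.sup_eq_top, ← MonoidHom.range_eq_map, Subgroup.range_subtype]
  · rw [Subgroup.card_map_of_injective A.subtype_injective,
      Subgroup.card_map_of_injective A.subtype_injective]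
    exact hT'.card_mul

/-- A `p'`-element acting trivially modulo a fixed subgroup of exponent `p` acts trivially. -/
theorem commute_of_mem {x a c : G} (hax : a * x * a⁻¹ = x * c) (hac : Commute a c) (hcp : c ^ p = 1)
    {n : ℕ} (han : a ^ n = 1) (hn : n.Coprime p) : Commute a x := by
  have hit : ∀ i : ℕ, a ^ i * x * (a ^ i)⁻¹ = x * c ^ i := by
    intro i
    induction i with
    | zero => simp
    | succ i ih =>
      calc a ^ (i + 1) * x * (a ^ (i + 1))⁻¹ = a ^ i * (a * x * a⁻¹) * (a ^ i)⁻¹ := by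
            rw [pow_succ]; group
        _ = (a ^ i * x * (a ^ i)⁻¹) * (a ^ i * c * (a ^ i)⁻¹) := by rw [hax]; group
        _ = x * c ^ (i + 1) := by
          rw [ih, (hac.pow_left i).eq, mul_inv_cancel_right, pow_succ, mul_assoc]
  have h1 := hit n
  rw [han, one_mul, inv_one, mul_one, eq_comm, mul_eq_left] at h1
  have hc1 : c = 1 := by
    rw [← orderOf_eq_one_iff]
    exact Nat.eq_one_of_dvd_coprimes hn (orderOf_dvd_of_pow_eq_one h1) (orderOf_dvd_of_pow_eq_one hcp)
  rw [hc1, mul_one] at hax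
  exact mul_inv_eq_iff_eq_mul.1 hax

/-- In a solvable group with the property, a noncyclic `p`-subgroup without two subgroups of
order `p` forces a quaternion Sylow subgroup of order 8. -/
theorem sylow_card_eight [Group.IsSolvable G] (hB : BCond G) (huG : CfsgLib.RankOneP.UniqueOrderP p G)
    {S : Subgroup G} (hS : IsPGroup p S) (hnc : ¬ IsCyclic S) :
    p = 2 ∧ ∀ P : Sylow p G, Nat.card (P : Subgroup G) = 8 := by
  classical
  have hp := (Fact.out : p.Prime)
  obtain ⟨P₀, hP₀⟩ := hS.exists_le_sylow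
  rcases CfsgLib.RankOneP.isCyclic_or_quaternion P₀.2 (huG.subgroup _) with h | ⟨hp2, k, hk, ⟨e⟩⟩
  · haveI := h
    exact absurd (isCyclic_of_injective (Subgroup.inclusion hP₀) (Subgroup.inclusion_injective hP₀)) hnc
  subst hp2
  haveI : NeZero (2 ^ k) := ⟨by positivity⟩
  have hcard : Nat.card (P₀ : Subgroup G) = 4 * 2 ^ k := by
    rw [Nat.card_congr e.toEquiv, Nat.card_eq_fintype_card, QuaternionGroup.card]
  refine ⟨rfl, fun P => ?_⟩
  rcases eq_or_lt_of_le hk with rfl | hk2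
  · rw [Nat.card_congr (P.equiv P₀).toEquiv, hcard]
    norm_num
  exfalso
  -- pass to the quotient by the odd core
  set N := Cfsg.pPrimeCore 2 G with hN
  haveI := CfsgLib.PCore.pPrimeCore_characteristic 2 G
  let π := QuotientGroup.mk' N
  have hπ : Function.Surjective π := QuotientGroup.mk'_surjective N
  have hPN : ∀ x ∈ (P₀ : Subgroup G), π x = 1 → x = 1 := by
    intro x hx h
    have h1 : x ∈ (P₀ : Subgroup G) ⊓ N := Subgroup.mem_inf.2 ⟨hx, (QuotientGroup.eq_one_iff x).1 h⟩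
    have h2 : (P₀ : Subgroup G) ⊓ N = ⊥ := by
      refine Subgroup.inf_eq_bot_of_coprime ?_
      obtain ⟨m, hm⟩ := IsPGroup.iff_card.1 P₀.2
      rw [hm]
      exact ((CfsgLib.PCore.pPrimeCore_coprime 2 G).symm).pow_left m
    rwa [h2, Subgroup.mem_bot] at h1
  have hinjP : ∀ x ∈ (P₀ : Subgroup G), ∀ y ∈ (P₀ : Subgroup G), π x = π y → x = y := by
    intro x hx y hy h
    have := hPN (x⁻¹ * y) (mul_mem (inv_mem hx) hy) (by rw [map_mul, map_inv, h, inv_mul_cancel])
    exact inv_mul_eq_one.1 this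
  set R := Cfsg.pCore 2 (G ⧸ N) with hR
  haveI := CfsgLib.PCore.pCore_characteristic 2 (G ⧸ N)
  have hRp : IsPGroup 2 R := CfsgLib.PCore.isPGroup_pCore 2 _
  let Pb : Sylow 2 (G ⧸ N) := P₀.mapSurjective hπ
  have hRP : R ≤ (Pb : Subgroup (G ⧸ N)) := hRp.le_sylow_of_normal Pb
  haveI : Group.IsSolvable (G ⧸ N) := Group.isSolvable_of_surjective hπ
  have hHH : Subgroup.centralizer (R : Set (G ⧸ N)) ≤ R :=
    CfsgLib.PCore.hall_higman CfsgLib.PCore.isPSolvable_of_isSolvable CfsgLib.PCore.pPrimeCore_quotient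
  -- some element of order 4 lies in `R`
  obtain ⟨u, hu, huo, huR⟩ : ∃ u ∈ (P₀ : Subgroup G), orderOf u = 4 ∧ π u ∈ R := by
    by_contra hcon
    push Not at hcon
    have hsq : ∀ r ∈ R, r ^ 2 = 1 := by
      intro r hr
      obtain ⟨x, hx, rfl⟩ := hRP hr
      obtain ⟨m, hm⟩ := IsPGroup.iff_orderOf.1 P₀.2 ⟨x, hx⟩
      rw [Subgroup.orderOf_mk] at hm
      rcases Nat.lt_or_ge m 2 with h | h
      · show π x ^ 2 = 1
        rw [← map_pow, show x ^ 2 = 1 from orderOf_dvd_iff_pow_eq_one.1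
          (hm ▸ (pow_dvd_pow 2 (show m ≤ 1 by omega)).trans (by norm_num)), map_one]
      · refine absurd ?_ (hcon (x ^ 2 ^ (m - 2)) (pow_mem hx _) ?_)
        · rw [map_pow]; exact pow_mem hr _
        · rw [orderOf_pow' _ (by positivity), hm, Nat.gcd_eq_right (pow_dvd_pow 2 (by omega)),
            Nat.pow_div (by omega) (by norm_num), show m - (m - 2) = 2 by omega]
    have huniq : ∀ r ∈ R, ∀ s ∈ R, r ≠ 1 → s ≠ 1 → r = s := by
      intro r hr s hs hr1 hs1
      obtain ⟨x, hx, rfl⟩ := hRP hr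
      obtain ⟨y, hy, rfl⟩ := hRP hs
      have hx2 : x ^ 2 = 1 := hPN _ (pow_mem hx 2) (by rw [map_pow]; exact hsq _ hr)
      have hy2 : y ^ 2 = 1 := hPN _ (pow_mem hy 2) (by rw [map_pow]; exact hsq _ hs)
      have hx1 : x ≠ 1 := fun h => hr1 (by show π x = 1; rw [h, map_one])
      obtain ⟨j, rfl⟩ := Subgroup.mem_zpowers_iff.1 (huG x y hx2 hy2 hx1)
      rcases Int.even_or_odd j with ⟨i, rfl⟩ | ⟨i, rfl⟩
      · exfalso; apply hs1
        show π (x ^ (i + i)) = 1
        rw [← two_mul, zpow_mul, zpow_ofNat, hx2, one_zpow, map_one]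
      · rw [zpow_add, zpow_mul, zpow_ofNat, hx2, one_zpow, one_mul, zpow_one]
    have hcen : Subgroup.centralizer (R : Set (G ⧸ N)) = ⊤ := by
      rw [eq_top_iff]
      intro q _
      rw [Subgroup.mem_centralizer_iff]
      intro r hr
      by_cases hr1 : r = 1
      · rw [hr1, one_mul, mul_one]
      have hn := (inferInstance : R.Normal).conj_mem r hr q
      have h1 := huniq _ hn r hr (fun h => hr1 (conj_eq_one_iff.1 h)) hr1
      exact (mul_inv_eq_iff_eq_mul.1 h1).symm
    have hall : ∀ x ∈ (P₀ : Subgroup G), x ^ 2 = 1 := fun x hx =>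
      hPN _ (pow_mem hx 2) (by rw [map_pow]; exact hsq _ (hHH (by rw [hcen]; trivial)))
    have h1 := congrArg (fun z : ↥(P₀ : Subgroup G) => (z : G))
      (e.symm_apply_apply (e.symm (QuaternionGroup.a 1)))
    have h2 : (e.symm (QuaternionGroup.a (1 : ZMod (2 * 2 ^ k)))) ^ 2 = 1 :=
      Subtype.ext (hall _ (e.symm (QuaternionGroup.a 1)).2)
    have h3 := orderOf_dvd_of_pow_eq_one h2
    rw [e.symm.orderOf_eq, QuaternionGroup.orderOf_a_one] at h3
    have h4 := Nat.le_of_dvd (by norm_num) h3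
    have h5 : 2 ^ 2 ≤ 2 ^ k := Nat.pow_le_pow_right (by norm_num) hk2
    omega
  have hconj : ∀ x : G, orderOf x = 4 → ∃ g : G, ∃ i : ℤ, x = g * u ^ i * g⁻¹ := by
    intro x hx
    obtain ⟨g, hg⟩ := hB (Subgroup.zpowers u) (Subgroup.zpowers x) inferInstance inferInstance
      (by rw [Nat.card_zpowers, Nat.card_zpowers, huo, hx])
    obtain ⟨b, hb, hbx⟩ :=
      (hg ▸ Subgroup.mem_zpowers x : x ∈ (Subgroup.zpowers u).map (MulAut.conj g).toMonoidHom)
    obtain ⟨i, rfl⟩ := Subgroup.mem_zpowers_iff.1 hb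
    exact ⟨g, i, hbx.symm⟩
  -- so the whole Sylow subgroup lies in `R`
  let q : ZMod (2 * 2 ^ k) → G := fun i => (e.symm (QuaternionGroup.xa i) : ↥(P₀ : Subgroup G))
  have hqo : ∀ i, orderOf (q i) = 4 := fun i => by
    rw [show q i = ((e.symm (QuaternionGroup.xa i) : ↥(P₀ : Subgroup G)) : G) from rfl,
      Subgroup.orderOf_coe, e.symm.orderOf_eq, QuaternionGroup.orderOf_xa]
  have hqR : ∀ i, π (q i) ∈ R := by
    intro i
    obtain ⟨g, j, hj⟩ := hconj _ (hqo i)
    rw [hj, map_mul, map_mul, map_inv, map_zpow]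
    exact (inferInstance : R.Normal).conj_mem _ (zpow_mem huR j) _
  have hPR : ∀ x ∈ (P₀ : Subgroup G), π x ∈ R := by
    intro x hx
    have hx' : x = ((e.symm (e ⟨x, hx⟩) : ↥(P₀ : Subgroup G)) : G) := by rw [e.symm_apply_apply]
    match he : e ⟨x, hx⟩ with
    | .xa i => rw [hx', he]; exact hqR i
    | .a i =>
      have h1 : QuaternionGroup.a i = (QuaternionGroup.xa (0 : ZMod (2 * 2 ^ k)))⁻¹ * QuaternionGroup.xa i := by
        rw [eq_inv_mul_iff_mul_eq, QuaternionGroup.xa_mul_a, zero_add]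
      rw [hx', he, h1, map_mul, map_inv, Subgroup.coe_mul, Subgroup.coe_inv, map_mul, map_inv]
      exact mul_mem (inv_mem (hqR 0)) (hqR i)
  set a₁ : G := ((e.symm (QuaternionGroup.a 1) : ↥(P₀ : Subgroup G)) : G) with ha₁
  have ha₁o : orderOf a₁ = 2 * 2 ^ k := by
    rw [ha₁, Subgroup.orderOf_coe, e.symm.orderOf_eq, QuaternionGroup.orderOf_a_one]
  have hbig : 8 ≤ 2 * 2 ^ k := by
    have h5 : 2 ^ 2 ≤ 2 ^ k := Nat.pow_le_pow_right (by norm_num) hk2
    omega
  set C : Subgroup (G ⧸ N) := Subgroup.zpowers (π a₁) with hC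
  have hCn : ∀ g : G, π g * π a₁ * (π g)⁻¹ ∈ C := by
    intro g
    obtain ⟨y, hy, hy'⟩ := hRP ((inferInstance : R.Normal).conj_mem _ (hPR a₁ (Subtype.prop _)) (π g))
    have hpow : ∀ n : ℕ, y ^ n = 1 ↔ a₁ ^ n = 1 := by
      intro n
      have h1 : π (y ^ n) = π g * π (a₁ ^ n) * (π g)⁻¹ := by
        rw [map_pow, map_pow, show π y = π g * π a₁ * (π g)⁻¹ from hy', conj_pow]
      constructor
      · intro h
        rw [h, map_one, eq_comm, conj_eq_one_iff] at h1
        exact hPN _ (pow_mem (Subtype.prop _) n) h1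
      · intro h
        rw [h, map_one, mul_one, mul_inv_cancel] at h1
        exact hPN _ (pow_mem hy n) h1
    have hyo : orderOf y = orderOf a₁ := orderOf_eq_orderOf_iff.2 hpow
    have hyz : y ∈ Subgroup.zpowers a₁ := by
      have hy'' : y = ((e.symm (e ⟨y, hy⟩) : ↥(P₀ : Subgroup G)) : G) := by rw [e.symm_apply_apply]
      match he : e ⟨y, hy⟩ with
      | .xa i =>
        rw [he] at hy''
        have := hqo i
        rw [show q i = y from hy''.symm, hyo, ha₁o] at this
        omega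
      | .a i =>
        rw [he] at hy''
        refine Subgroup.mem_zpowers_iff.2 ⟨(i.val : ℤ), ?_⟩
        rw [hy'', zpow_natCast, ha₁, ← Subgroup.coe_pow, ← map_pow, QuaternionGroup.a_one_pow,
          ZMod.natCast_zmod_val]
    obtain ⟨j, hj⟩ := Subgroup.mem_zpowers_iff.1 hyz
    exact Subgroup.mem_zpowers_iff.2 ⟨j, by rw [← map_zpow, hj]; exact hy'⟩
  -- the power of order 4 and a reflection are conjugate
  set b := a₁ ^ 2 ^ (k - 1) with hb
  have hbo : orderOf b = 4 := by
    rw [hb, orderOf_pow' _ (by positivity), ha₁o, ← pow_succ',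
      Nat.gcd_eq_right (pow_dvd_pow 2 (by omega)), Nat.pow_div (by omega) (by norm_num),
      show k + 1 - (k - 1) = 2 by omega]
  obtain ⟨g, hg⟩ := hB (Subgroup.zpowers b) (Subgroup.zpowers (q 0)) inferInstance inferInstance
    (by rw [Nat.card_zpowers, Nat.card_zpowers, hbo, hqo 0])
  obtain ⟨c, hc, hcq⟩ := (hg ▸ Subgroup.mem_zpowers (q 0) :
    q 0 ∈ (Subgroup.zpowers b).map (MulAut.conj g).toMonoidHom)
  obtain ⟨j, rfl⟩ := Subgroup.mem_zpowers_iff.1 hc
  have hqC : π (q 0) ∈ C := by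
    rw [← hcq]
    show π (g * b ^ j * g⁻¹) ∈ C
    rw [hb, map_mul, map_mul, map_inv, map_zpow, map_pow, ← conj_zpow, ← conj_pow]
    exact zpow_mem (pow_mem (hCn g) _) _
  obtain ⟨j', hj'⟩ := mem_powers_iff_mem_zpowers.2 hqC
  have hj'' : π (a₁ ^ j') = π (q 0) := by rw [map_pow]; exact hj'
  have h6 := hinjP _ (pow_mem (Subtype.prop _) j') _ (Subtype.prop _) hj''
  rw [← Subgroup.coe_pow, ← map_pow] at h6
  have h7 := e.symm.injective (Subtype.ext h6)
  rw [QuaternionGroup.a_one_pow] at h7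
  exact absurd h7 (by simp)

theorem step [Group.IsSolvable G] (hB : BCond G) (V : Subgroup G) (hV : CfsgLib.Hall.IsMinNormal V) :
    haveI := hV.1
    BCond (G ⧸ V) := by
  classical
  haveI := hV.1
  obtain ⟨p, hp, hab, hVp, hexp⟩ := hV.elementaryAbelian
  haveI : Fact p.Prime := ⟨hp⟩
  obtain ⟨n, hn⟩ := IsPGroup.iff_card.1 hVp
  have hn0 : n ≠ 0 := fun h => hV.2.1 (Subgroup.eq_bot_of_card_eq _ (by rw [hn, h, pow_zero]))
  obtain ⟨⟨v, hv⟩, hvo⟩ := exists_prime_orderOf_dvd_card' (G := V) p (hn ▸ dvd_pow_self p hn0)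
  rw [Subgroup.orderOf_mk] at hvo
  intro Ab Bb hAb hBb hcardb
  let π := QuotientGroup.mk' V
  set A := Ab.comap π with hA
  set B := Bb.comap π with hBdef
  suffices h : ∃ g, B = A.map (MulAut.conj g).toMonoidHom by
    obtain ⟨g, hg⟩ := h
    refine ⟨π g, ?_⟩
    have h1 := congrArg (Subgroup.map π) hg
    rw [map_conj_comp, hA, hBdef, Subgroup.map_comap_eq_self_of_surjective (QuotientGroup.mk'_surjective V),
      Subgroup.map_comap_eq_self_of_surjective (QuotientGroup.mk'_surjective V)] at h1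
    exact h1
  have hcard : Nat.card A = Nat.card B := by
    rw [hA, hBdef, CfsgLib.PCore.card_comap_mk', CfsgLib.PCore.card_comap_mk', hcardb]
  have hVA : ∀ Cb : Subgroup (G ⧸ V), V ≤ Cb.comap π := fun Cb x hx => by
    show π x ∈ Cb
    rw [QuotientGroup.mk'_apply, (QuotientGroup.eq_one_iff x).2 hx]
    exact one_mem _
  have hcomm : ∀ Cb : Subgroup (G ⧸ V), IsMulCommutative ↥Cb →
      ∀ u ∈ Cb.comap π, ∀ w ∈ Cb.comap π, u * w * u⁻¹ * w⁻¹ ∈ V := by
    intro Cb hCb u hu w hw
    rw [← QuotientGroup.eq_one_iff]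
    show π (u * w * u⁻¹ * w⁻¹) = 1
    have h1 : π u * π w = π w * π u :=
      congrArg Subtype.val (hCb.is_comm.comm (⟨π u, hu⟩ : Cb) ⟨π w, hw⟩)
    rw [map_mul, map_mul, map_mul, map_inv, map_inv, h1]
    group
  obtain ⟨S, T, hS, hVS, hSA, hTA, hTc, hTco, hST, hSTc⟩ := decomp V A hVp (hVA Ab) (hcomm Ab hAb)
  obtain ⟨S', T', hS', hVS', hS'B, hT'B, hT'c, hT'co, hST', hST'c⟩ :=
    decomp V B hVp (hVA Bb) (hcomm Bb hBb)
  have hSS : Nat.card S = Nat.card S' := by
    obtain ⟨i, hi⟩ := IsPGroup.iff_card.1 hS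
    obtain ⟨j, hj⟩ := IsPGroup.iff_card.1 hS'
    refine Nat.dvd_antisymm ?_ ?_
    · refine Nat.Coprime.dvd_of_dvd_mul_right (n := Nat.card T') ?_ ?_
      · rw [hi]; exact (hT'co.symm).pow_left i
      · rw [hST'c, ← hcard, ← hSTc]; exact Dvd.intro _ rfl
    · refine Nat.Coprime.dvd_of_dvd_mul_right (n := Nat.card T) ?_ ?_
      · rw [hj]; exact (hTco.symm).pow_left j
      · rw [hSTc, hcard, ← hST'c]; exact Dvd.intro _ rfl
  have hTT : Nat.card T = Nat.card T' := by
    have h1 := hSTc.trans (hcard.trans hST'c.symm)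
    rw [hSS] at h1
    exact Nat.eq_of_mul_eq_mul_left Nat.card_pos h1
  obtain ⟨g, hg⟩ := hB T T' hTc hT'c hTT
  by_cases hSV : Nat.card S = Nat.card V
  · have e1 : V = S := Subgroup.eq_of_le_of_card_ge hVS hSV.le
    have e2 : V = S' := Subgroup.eq_of_le_of_card_ge hVS' (hSS ▸ hSV.le)
    refine ⟨g, ?_⟩
    rw [← hST, ← hST', Subgroup.map_sup, ← hg, ← e1, ← e2]
    congr 1
    exact (Subgroup.normalizer_eq_top_iff.2 hV.1 |> fun h => by
      have hg' : g ∈ Subgroup.normalizer (V : Set G) := by rw [h]; trivial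
      ext x
      constructor
      · intro hx
        exact ⟨g⁻¹ * x * g, (Subgroup.mem_normalizer_iff''.1 hg' x).1 hx, by simp [mul_assoc]⟩
      · rintro ⟨y, hy, rfl⟩
        exact (Subgroup.mem_normalizer_iff.1 hg' y).1 hy)
  -- now `V` has order `p`
  have hn1 : n = 1 := by
    by_contra hne
    apply hSV
    refine le_antisymm (Subgroup.card_le_of_le fun x hx => ?_) (Subgroup.card_le_of_le hVS)
    obtain ⟨m, hm⟩ := hS ⟨x, hx⟩
    exact pElement_mem hB hab hexp (hn ▸ pow_dvd_pow p (by omega)) hv hvo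
      (m := m) (by simpa using congrArg Subtype.val hm)
  subst hn1
  rw [pow_one] at hn
  have hVz : V = Subgroup.zpowers v :=
    (Subgroup.eq_of_le_of_card_ge (Subgroup.zpowers_le.2 hv) (by rw [Nat.card_zpowers, hvo, hn])).symm
  have huG : CfsgLib.RankOneP.UniqueOrderP p G := by
    intro x y hx hy hx1
    have hxV := mem_of_pow_eq_one hB hv hvo hx
    have hyV := mem_of_pow_eq_one hB hv hvo hy
    have h1 : Subgroup.zpowers x = V := Subgroup.eq_of_le_of_card_ge (Subgroup.zpowers_le.2 hxV)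
      (by rw [Nat.card_zpowers, orderOf_eq_prime hx hx1, hn])
    rw [h1]; exact hyV
  -- complements centralise the Sylow subgroups
  have hcen : ∀ (C : Subgroup (G ⧸ V)), IsMulCommutative ↥C → ∀ Q U : Subgroup G, IsPGroup p Q → V ≤ Q →
      Q ≤ C.comap π → U ≤ C.comap π → (Nat.card U).Coprime p → Nat.card Q ≠ Nat.card V →
      Q ≤ Subgroup.centralizer (U : Set G) := by
    intro C hC Q U hQ hVQ hQC hUC hUco hQV
    intro x hx
    rw [Subgroup.mem_centralizer_iff]
    intro a ha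
    have han : a ^ Nat.card U = 1 := by
      exact congrArg Subtype.val (show (⟨a, ha⟩ : U) ^ Nat.card U = 1 from pow_card_eq_one')
    have hcV : ∀ y ∈ Q, y⁻¹ * (a * y * a⁻¹) ∈ V := by
      intro y hy
      have h1 := hcomm C hC _ (inv_mem (hQC hy)) _ (hUC ha)
      simpa [mul_assoc] using h1
    by_cases hcy : IsCyclic Q
    · obtain ⟨g, hg⟩ := Subgroup.isCyclic_iff_exists_zpowers_eq_top Q |>.1 hcy
      have hgQ : g ∈ Q := hg ▸ Subgroup.mem_zpowers g
      obtain ⟨i, hi⟩ := Subgroup.mem_zpowers_iff.1 (show v ∈ Subgroup.zpowers g by rw [hg]; exact hVQ hv)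
      obtain ⟨m, hm⟩ := IsPGroup.iff_card.1 hQ
      have hgo : orderOf g = p ^ m := by rw [← Nat.card_zpowers, hg, hm]
      have hm2 : 2 ≤ m := by
        by_contra h
        apply hQV
        have h1 := Subgroup.card_le_of_le hVQ
        have h2 : p ^ m ≤ p ^ 1 := Nat.pow_le_pow_right hp.pos (by omega)
        rw [pow_one] at h2
        rw [hn, hm] at h1 ⊢
        exact le_antisymm h2 h1
      have hpi : (p : ℤ) ∣ i := by
        have h1 : g ^ (i * p) = 1 := by
          rw [zpow_mul, hi, zpow_natCast, ← hvo, pow_orderOf_eq_one]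
        rw [← orderOf_dvd_iff_zpow_eq_one, hgo] at h1
        obtain ⟨d, hd⟩ := h1
        have h2 : ((p ^ m : ℕ) : ℤ) = (p : ℤ) * ((p : ℤ) * (p : ℤ) ^ (m - 2)) := by
          conv_lhs => rw [show m = (m - 2) + 2 by omega]
          push_cast
          ring
        rw [h2] at hd
        refine ⟨(p : ℤ) ^ (m - 2) * d, ?_⟩
        have h3 : i * (p : ℤ) = ((p : ℤ) * ((p : ℤ) ^ (m - 2) * d)) * p := by rw [hd]; ring
        exact mul_right_cancel₀ (by exact_mod_cast hp.ne_zero) h3
      set c := g⁻¹ * (a * g * a⁻¹) with hc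
      have hcp : c ^ p = 1 := hexp _ (hcV g hgQ)
      have hgc : Commute g c := by
        obtain ⟨j, hj⟩ := Subgroup.mem_zpowers_iff.1
          (show c ∈ Subgroup.zpowers g by rw [hg]; exact hVQ (hcV g hgQ))
        rw [← hj]; exact Commute.self_zpow g j
      have hgp : Commute a (g ^ p) := by
        refine mul_inv_eq_iff_eq_mul.1 ?_
        rw [← conj_pow, show a * g * a⁻¹ = g * c by rw [hc]; group, hgc.mul_pow, hcp, mul_one]
      have hav : Commute a v := by
        obtain ⟨i', rfl⟩ := hpi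
        rw [← hi, zpow_mul, zpow_natCast]
        exact hgp.zpow_right i'
      have hacc : Commute a c := by
        obtain ⟨j, hj⟩ := Subgroup.mem_zpowers_iff.1
          (show c ∈ Subgroup.zpowers v by rw [← hVz]; exact hcV g hgQ)
        rw [← hj]; exact hav.zpow_right j
      have hag : Commute a g :=
        commute_of_mem (p := p) (by rw [hc]; group) hacc hcp han hUco
      obtain ⟨j, hj⟩ := Subgroup.mem_zpowers_iff.1 (show x ∈ Subgroup.zpowers g by rw [hg]; exact hx)
      rw [← hj]; exact (hag.zpow_right j).eq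
    · obtain ⟨hp2, -⟩ := sylow_card_eight hB huG hQ hcy
      subst hp2
      have hav : Commute a v := by
        have h1 : a * v * a⁻¹ ∈ V := hV.1.conj_mem v hv a
        rw [hVz] at h1
        obtain ⟨j, hj⟩ := Subgroup.mem_zpowers_iff.1 h1
        rcases Int.even_or_odd j with ⟨i, rfl⟩ | ⟨i, rfl⟩
        · exfalso
          rw [← two_mul, zpow_mul, zpow_ofNat, ← hvo, pow_orderOf_eq_one, one_zpow, eq_comm,
            conj_eq_one_iff] at hj
          rw [hj, orderOf_one] at hvo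
          norm_num at hvo
        · rw [zpow_add, zpow_mul, zpow_ofNat, ← hvo, pow_orderOf_eq_one, one_zpow, one_mul, zpow_one] at hj
          exact mul_inv_eq_iff_eq_mul.1 hj.symm
      have hacc : Commute a (x⁻¹ * (a * x * a⁻¹)) := by
        obtain ⟨j, hj⟩ := Subgroup.mem_zpowers_iff.1
          (show x⁻¹ * (a * x * a⁻¹) ∈ Subgroup.zpowers v by rw [← hVz]; exact hcV x hx)
        rw [← hj]; exact hav.zpow_right j
      exact (commute_of_mem (p := 2) (c := x⁻¹ * (a * x * a⁻¹)) (by group) hacc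
        (hexp _ (hcV x hx)) han hUco).eq
  have hSC := hcen Ab hAb S T hS hVS hSA hTA hTco hSV
  have hS'C := hcen Bb hBb S' T' hS' hVS' hS'B hT'B hT'co (hSS ▸ hSV)
  have habel : ∀ Q U : Subgroup G, IsCyclic Q → IsMulCommutative U → Q ≤ Subgroup.centralizer (U : Set G) →
      IsMulCommutative ↥(Q ⊔ U) := by
    intro Q U hQ hU hQU
    haveI := hU
    have h1 : IsMulCommutative Q := ⟨⟨fun a b => by letI := hQ.commGroup; exact mul_comm a b⟩⟩
    have h2 : Q ⊔ U ≤ Subgroup.centralizer ((Q ⊔ U : Subgroup G) : Set G) := by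
      refine sup_le ?_ ?_ <;> rw [Subgroup.le_centralizer_iff]
      · exact sup_le (Subgroup.le_centralizer Q) (Subgroup.le_centralizer_iff.1 hQU)
      · exact sup_le hQU (Subgroup.le_centralizer U)
    exact ⟨⟨fun a b => Subtype.ext (Subgroup.mem_centralizer_iff.1 (h2 b.2) a a.2)⟩⟩
  by_cases hcyc : IsCyclic S ∧ IsCyclic S'
  · exact hB A B (hST ▸ habel S T hcyc.1 hTc hSC) (hST' ▸ habel S' T' hcyc.2 hT'c hS'C) hcard
  -- a quaternion group of order 8
  have h8 : ∀ P : Sylow p G, Nat.card (P : Subgroup G) = Nat.card S := by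
    intro P
    have key : ∀ Q : Subgroup G, IsPGroup p Q → ¬ IsCyclic Q →
        Nat.card (P : Subgroup G) = Nat.card Q := by
      intro Q hQ hQc
      obtain ⟨hp2, h⟩ := sylow_card_eight hB huG hQ hQc
      subst hp2
      obtain ⟨R, hR⟩ := hQ.exists_le_sylow
      obtain ⟨m, hm⟩ := IsPGroup.iff_card.1 hQ
      have hle := Subgroup.card_le_of_le hR
      rw [h R, hm] at hle
      rcases Nat.lt_or_ge m 3 with hlt | hge
      · exfalso
        apply hQc
        rcases CfsgLib.RankOneP.isCyclic_or_quaternion hQ (huG.subgroup Q) with h1 | ⟨-, k, hk, ⟨e⟩⟩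
        · exact h1
        · haveI : NeZero (2 ^ k) := ⟨by positivity⟩
          have h2 := Nat.card_congr e.toEquiv
          rw [hm, Nat.card_eq_fintype_card, QuaternionGroup.card] at h2
          have h3 : 2 ^ m ≤ 2 ^ 2 := Nat.pow_le_pow_right (by norm_num) (by omega)
          have h4 : 2 ^ 1 ≤ 2 ^ k := Nat.pow_le_pow_right (by norm_num) hk
          omega
      · rw [h P, hm]
        have : 2 ^ 3 ≤ 2 ^ m := Nat.pow_le_pow_right (by norm_num) hge
        omega
    rcases not_and_or.1 hcyc with h | h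
    · exact key S hS h
    · rw [hSS]; exact key S' hS' h
  set Cz := Subgroup.centralizer (T' : Set G)
  have hgS : S.map (MulAut.conj g).toMonoidHom ≤ Cz := by
    rintro _ ⟨x, hx, rfl⟩
    rw [Subgroup.mem_centralizer_iff]
    intro y hy
    rw [hg] at hy
    obtain ⟨z, hz, rfl⟩ := hy
    rw [← map_mul, ← map_mul, Subgroup.mem_centralizer_iff.1 (hSC hx) z hz]
  have hsyl : ∀ Q : Subgroup G, IsPGroup p Q → Nat.card Q = Nat.card S → ∃ P : Sylow p G, (P : Subgroup G) = Q := by
    intro Q hQ hQc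
    obtain ⟨P, hP⟩ := hQ.exists_le_sylow
    exact ⟨P, (Subgroup.eq_of_le_of_card_ge hP (by rw [hQc, h8 P])).symm⟩
  obtain ⟨P1, hP1⟩ := hsyl _ (hS.map _) (Subgroup.card_map_of_injective (f := (MulAut.conj g).toMonoidHom) (MulAut.conj g).injective)
  obtain ⟨P2, hP2⟩ := hsyl S' hS' hSS.symm
  obtain ⟨c, hc⟩ := MulAction.exists_smul_eq ↥Cz (P1.subtype (hP1 ▸ hgS : (P1 : Subgroup G) ≤ Cz))
    (P2.subtype (hP2 ▸ hS'C : (P2 : Subgroup G) ≤ Cz))
  rw [Sylow.smul_subtype] at hc
  have hcP := congrArg (fun P : Sylow p G => (P : Subgroup G)) (Sylow.subtype_injective hc)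
  refine ⟨(c : G) * g, ?_⟩
  rw [← hST, ← hST', Subgroup.map_sup]
  have hT1 : T.map (MulAut.conj ((c : G) * g)).toMonoidHom = T' := by
    rw [map_mul, show (MulAut.conj (c : G) * MulAut.conj g).toMonoidHom =
      (MulAut.conj (c : G)).toMonoidHom.comp (MulAut.conj g).toMonoidHom from rfl, ← Subgroup.map_map, ← hg]
    ext y
    constructor
    · rintro ⟨z, hz, rfl⟩
      show (c : G) * z * (c : G)⁻¹ ∈ T'
      rw [← Subgroup.mem_centralizer_iff.1 c.2 z hz, mul_inv_cancel_right]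
      exact hz
    · intro hy
      refine ⟨y, hy, ?_⟩
      show (c : G) * y * (c : G)⁻¹ = y
      rw [← Subgroup.mem_centralizer_iff.1 c.2 y hy, mul_inv_cancel_right]
  have hS1 : S.map (MulAut.conj ((c : G) * g)).toMonoidHom = S' := by
    rw [map_mul, show (MulAut.conj (c : G) * MulAut.conj g).toMonoidHom =
      (MulAut.conj (c : G)).toMonoidHom.comp (MulAut.conj g).toMonoidHom from rfl, ← Subgroup.map_map,
      ← hP1, ← hP2]
    exact hcP
  rw [hS1, hT1]

theorem quotient_bcond : ∀ (n : ℕ) (H : Type u) [Group H] [Finite H], Group.IsSolvable H → BCond H →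
    Nat.card H = n → ∀ (M : Subgroup H) [M.Normal], BCond (H ⧸ M) := by
  intro n
  induction n using Nat.strong_induction_on with
  | _ n ih =>
    intro H _ _ hsol hB hn M _
    haveI := hsol
    by_cases hM : M = ⊥
    · subst hM
      exact bcond_of_equiv QuotientGroup.quotientBot.symm hB
    obtain ⟨V, hV, hVM⟩ := CfsgLib.Hall.exists_isMinNormal_le M hM
    haveI := hV.1
    have hlt : Nat.card (H ⧸ V) < n := by
      rw [← hn, ← Subgroup.index_eq_card, ← V.card_mul_index]
      have h2 : 2 ≤ Nat.card V := by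
        by_contra h
        exact hV.2.1 (Subgroup.eq_bot_of_card_le _ (by omega))
      have h3 : 0 < V.index := Nat.pos_of_ne_zero Subgroup.index_ne_zero_of_finite
      calc V.index = 1 * V.index := (one_mul _).symm
        _ < Nat.card V * V.index := Nat.mul_lt_mul_of_pos_right (by omega) h3
    have h1 := ih _ hlt (H ⧸ V) (Group.isSolvable_of_surjective (QuotientGroup.mk'_surjective V))
      (step hB V hV) rfl (M.map (QuotientGroup.mk' V))
    exact bcond_of_equiv (QuotientGroup.quotientQuotientEquivQuotient V M hVM) h1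

end CfsgLib.BGroups
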